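import Cfsg.Agent.H129.HalfT
import Cfsg.Agent.H720.RowsSix
import Cfsg.Agent.H949.PB.Corr

/-!
# Real elements of `E₇(q)`, `q` odd (helper949)

* `hasReal_two` : `-1` in the Weyl group, centre of order two: a real element of order `r` for every odd prime `r`
  dividing the order, different from the characteristic;
* `hasReal_E7` : the case `E₇(q)`, `q` odd.
-/

set_option autoImplicit false
set_option linter.unusedSectionVars false

namespace Cfsg.Agent.H949.PB

open CoxeterSystem Cfsg Cfsg.Lie Cfsg.Lie.ChevalleyDatum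
open Cfsg.Agent.ChevalleyStructure Cfsg.Agent.ChevalleyStructure.Elts Cfsg.Agent.ChevalleyStructure.CoxeterGeom
  Cfsg.Agent.ChevalleyStructure.CoxeterGeomTypes Cfsg.Agent.ChevalleyStructure.NPerm
open Cfsg.Agent.Tits.Roots Cfsg.Agent.Tits.Core Cfsg.Agent.Nodes Cfsg.Agent.Nodes.Reps Cfsg.Agent.Nodes.BNOf
  Cfsg.Agent.Nodes.RGDChev Cfsg.Agent.Nodes.Bruhat Cfsg.Agent.Nodes.SubComb Cfsg.Agent.Nodes.Coroot
open Cfsg.Agent.KFacts.RgdField Cfsg.Agent.KFacts.RgdChevCoord Cfsg.Agent.BpExc.TorCent Cfsg.Agent.BpExc.TorChev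
open Cfsg.Agent.GpExc.Field Cfsg.Agent.BpExc.Tow Cfsg.Agent.BpExc.TowChev Cfsg.Agent.BpExc.Fr
  Cfsg.Agent.BpExc.LangFr Cfsg.Agent.LangThm Cfsg.Agent.BpExc Cfsg.Agent.H129.TorusChar Cfsg.Agent.H129.TorusCent
  Cfsg.Agent.H129.TorusTw Cfsg.Agent.H129.TorusMain Cfsg.Agent.H129.TorusUntw Cfsg.Agent.H129.TorAct
  Cfsg.Agent.H129.WData Cfsg.Agent.H129.UntwTwo Cfsg.Agent.H129.StCover Cfsg.Agent.H720.TorusReal
  Cfsg.Agent.H720.RealTw Cfsg.Agent.H722.RealP
open Cfsg.Agent.ChevalleyStructure.StTorus (eval_eq_one)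

universe u

section

variable {D : ChevalleyDatum} {l : ℕ} {M : CoxeterMatrix (Fin l)} (hp : IsType D l M)
  {W : Type*} [Group W] (cs : CoxeterSystem M W)

include hp cs in
/-- **Real elements, centre of order two.** -/
theorem hasReal_two [Finite W] {F : Type u} [Field F] [Fintype F] {q : ℕ} (hq : Fintype.card F = q)
    {B' : Fin l → Fin l → ℤ} (hB : InvC D l 2 B') (hdq : 2 ∣ q - 1)
    (hPhi : ∃ Φ : (Fin D.rank → (AlgebraicClosure F)ˣ) →* D.SteinbergGroup (AlgebraicClosure F), IsPhi Φ)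
    {kv : Fin D.rank → ℤ} {i0 : Fin D.rank} (hk0 : kv i0 = 1)
    (hkv : ∀ s < D.nroots, (2 : ℤ) ∣ ∑ i : Fin D.rank, kv i * D.cartan i s)
    {Bc : Fin D.rank → Fin D.rank → ℤ}
    (hBc : ∀ i m : Fin D.rank, ∑ j : Fin D.rank, D.cartan i (D.simple j) * Bc j m = if i = m then (2 : ℤ) else 0)
    (hcard : 2 * Nat.card (D.diagonalSubgroup F) = (q - 1) ^ l)
    {v : W} (hv : ∀ x, rep cs hp.isCartan v x = -x) {r : ℕ} (hr : r.Prime) (hr2 : r ≠ 2) (hrq : ¬ r ∣ q)
    (hrG : r ∣ Nat.card ↥(D.group F)) : HasReal r ↥(D.group F) := by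
  obtain ⟨p, e, hpF, hpc, hpk, he, rfl, hk⟩ := exists_closure hq
  have hAk : Cfsg.Agent.BpExc.TorAll.HAlg p (AlgebraicClosure F) := Cfsg.Agent.H944.RootVals.hAlg_closure p F
  obtain ⟨Φ, hΦ⟩ := hPhi
  have hrp : r ≠ p := fun h => hrq (by rw [h]; exact dvd_pow_self p he.ne')
  have hpd : ¬ p ∣ 2 := fun h1 => by
    have h2 : p = 2 := (Nat.prime_dvd_prime_iff_eq hpF.out Nat.prime_two).1 h1
    subst h2
    have h3 : 2 ∣ 2 ^ e := dvd_pow_self 2 he.ne'
    have h4 : 0 < 2 ^ e := Nat.pow_pos (by norm_num)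
    omega
  -- the centre
  have hdk : ((2 : ℕ) : AlgebraicClosure F) ≠ 0 := by
    rw [Ne, CharP.cast_eq_zero_iff (AlgebraicClosure F) p]
    exact hpd
  have : NeZero ((2 : ℕ) : AlgebraicClosure F) := ⟨hdk⟩
  obtain ⟨ζ, hζ⟩ := HasEnoughRootsOfUnity.exists_primitiveRoot (AlgebraicClosure F) 2
  have hζ0 : ζ ≠ 0 := hζ.ne_zero (by norm_num)
  set ω : (AlgebraicClosure F)ˣ := Units.mk0 ζ hζ0 with hω
  have hωd : ω ^ 2 = 1 := Units.ext (by rw [Units.val_pow_eq_pow_val]; exact hζ.pow_eq_one)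
  have hcc : ∀ s < D.nroots, ∏ i : Fin D.rank, (ω ^ kv i) ^ D.cartan i s = 1 := by
    intro s hs
    obtain ⟨a, ha⟩ := hkv s hs
    rw [Finset.prod_congr rfl fun i _ => (zpow_mul ω (kv i) (D.cartan i s)).symm, prod_zpow_sum, ha, zpow_mul]
    have e2 : ω ^ (2 : ℤ) = 1 := by
      rw [show (2 : ℤ) = ((2 : ℕ) : ℤ) by norm_num, zpow_natCast, hωd]
    rw [e2, one_zpow]
  have hc1 : (fun i => ω ^ kv i : Fin D.rank → (AlgebraicClosure F)ˣ) ≠ 1 := by
    intro h1
    have h2 := congrFun h1 i0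
    simp only [hk0, zpow_one, Pi.one_apply] at h2
    have h3 : ζ = 1 := congrArg Units.val h2
    rw [h3] at hζ
    exact absurd (hζ.eq_orderOf.trans orderOf_one) (by norm_num)
  have hfix : ∀ b : Fin D.rank → (AlgebraicClosure F)ˣ, (∀ s < D.nroots, ∏ i : Fin D.rank, b i ^ D.cartan i s = 1) →
      ∀ i, b i ^ p ^ e = b i := by
    intro b hb i
    have h1 := eval_eq_one (fun i j : Fin D.rank => D.cartan i (D.simple j)) (fun j => Bc j i)
      (fun m => if m = i then (2 : ℤ) else 0) (fun m => hBc m i) b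
      (fun j => hb (D.simple j) (simple_lt hp.inList j.2))
    rw [Finset.prod_eq_single i] at h1
    · rw [if_pos rfl, show (2 : ℤ) = ((2 : ℕ) : ℤ) by norm_num, zpow_natCast] at h1
      obtain ⟨a, ha⟩ := hdq
      have h2 : p ^ e = 2 * a + 1 := by
        have : 0 < p ^ e := Nat.pow_pos hpF.out.pos
        omega
      rw [h2, pow_succ, pow_mul, h1, one_pow, one_mul]
    · intro j _ hj; rw [if_neg hj, zpow_zero]
    · intro hi; exact absurd (Finset.mem_univ _) hi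
  have hN := nsys_of_locFin hp cs hk p
  set f := algebraMap F (AlgebraicClosure F) with hf
  have he0 := emb_injective hp.inList f
  have hσ := isFrob_phi (D := D) (k := AlgebraicClosure F) (p := p) (e := e)
  have Fσ := fr_phi (k := AlgebraicClosure F) (p := p) (e := e) hp cs
  -- the torus element
  obtain ⟨t, w, ht, htr, hτ⟩ := exists_torus_elt hp cs hAk hk hσ Fσ hN he0 (phi_emb hp f hq) hr hrp hrG
  obtain ⟨n, hn⟩ := exists_rp cs hN w
  obtain ⟨z, hz⟩ := lang_all hp cs he hσ Fσ 1 n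
  rw [map_one, one_mul] at hz
  have h2 : phi D (AlgebraicClosure F) p e z = z * n := by rw [hz]; group
  have hxfix : phi D (AlgebraicClosure F) p e (z * t * z⁻¹) = z * t * z⁻¹ := by
    have h1 : n * phi D (AlgebraicClosure F) p e t * n⁻¹ = t := (tau_iff hp cs hk hσ Fσ hn ht).2 hτ
    rw [map_mul, map_mul, map_inv, h2]
    calc z * n * phi D (AlgebraicClosure F) p e t * (z * n)⁻¹ =
        z * (n * phi D (AlgebraicClosure F) p e t * n⁻¹) * z⁻¹ := by group
      _ = z * t * z⁻¹ := by rw [h1]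
  obtain ⟨y, hy, hyx⟩ := real_fixed hp cs hk he hσ Fσ hB two_ne_zero hn ht hz (w' := v) (j := -1)
    (fun x => by
      show rep cs hp.isCartan v (theta hp cs w (AddEquiv.refl (Fin l → ℤ)) x) =
        theta hp cs w (AddEquiv.refl (Fin l → ℤ)) (rep cs hp.isCartan v x)
      rw [hv, hv, map_neg])
    (fun x => by
      rw [hv, (isMC_cX hp ht).neg, zpow_neg, zpow_one, inv_inv])
  rw [zpow_neg, zpow_one] at hyx
  have hord : orderOf (z * t * z⁻¹) = r := by
    rw [← htr]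
    have h3 : z * t * z⁻¹ = MulAut.conj z t := rfl
    rw [h3]
    exact orderOf_injective (MulAut.conj z).toMonoidHom (MulAut.conj z).injective t
  have hcop : Nat.Coprime 2 r := (Nat.coprime_primes Nat.prime_two hr).2 (Ne.symm hr2)
  obtain ⟨x0, hx0⟩ := mem_range_of_order (e0 := emb hp.inList f) hcop
    (by rw [← hord]; exact pow_orderOf_eq_one _)
    (H720.RowsSix.desc_untw hp cs f hq hB two_ne_zero hxfix)
  -- the inverting element in the image
  have key : ∃ g : ↥(D.group F), emb hp.inList f g * (z * t * z⁻¹) * (emb hp.inList f g)⁻¹ = (z * t * z⁻¹)⁻¹ := by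
    by_cases hy1 : y ∈ (emb hp.inList f).range
    · obtain ⟨g, hg⟩ := hy1
      exact ⟨g, by rw [hg]; exact hyx⟩
    · obtain ⟨s, hs, hns, hs1⟩ := exists_corr hp cs hΦ f hq hcc hc1 hfix hn hz
      have hσs : phi D (AlgebraicClosure F) p e (z * s * z⁻¹) = z * s * z⁻¹ := by
        rw [map_mul, map_mul, map_inv, h2]
        calc z * n * phi D (AlgebraicClosure F) p e s * (z * n)⁻¹ =
            z * (n * phi D (AlgebraicClosure F) p e s * n⁻¹) * z⁻¹ := by group
          _ = z * s * z⁻¹ := by rw [hns]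
      obtain ⟨g, hg⟩ := H129.HalfT.mul_mem_range hp cs f hq (by rw [hcard, hq]) hy hσs hy1 hs1
      refine ⟨g, ?_⟩
      have hst : s * t = t * s := H720.TorusReal.TT_comm hp hs ht
      rw [hg, ← hyx]
      calc y * (z * s * z⁻¹) * (z * t * z⁻¹) * (y * (z * s * z⁻¹))⁻¹
          = y * (z * (s * t) * s⁻¹ * z⁻¹) * y⁻¹ := by group
        _ = y * (z * t * z⁻¹) * y⁻¹ := by rw [hst]; group
  obtain ⟨g, hg⟩ := key
  rw [← hx0, ← map_inv, ← map_mul, ← map_inv, ← map_mul] at hg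
  refine hasReal_of_isConj (x := x0) ?_ (isConj_iff.2 ⟨g, he0 hg⟩)
  rw [← orderOf_injective (emb hp.inList f) he0 x0, hx0, hord]

end

/-- **Real elements of `E₇(q)`, `q` odd**: every odd prime dividing the order and different from the
characteristic. -/
theorem hasReal_E7 {F : Type u} [Field F] [Fintype F] {q : ℕ} (hq : Fintype.card F = q) (hodd : Odd q)
    {r : ℕ} (hr : r.Prime) (hr2 : r ≠ 2) (hrq : ¬ r ∣ q) (hrG : r ∣ Nat.card ↥(chevE7.group F)) :
    HasReal r ↥(chevE7.group F) := by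
  have hp : IsType Cfsg.Lie.chevE7 7 CoxeterMatrix.E₇ := by simp [IsType, typeList]
  have : Finite CoxeterMatrix.E₇.Group := finite_W hp CoxeterMatrix.E₇.toCoxeterSystem
  obtain ⟨v, hv⟩ := H129.HalfT.exists_neg CoxeterMatrix.E₇.toCoxeterSystem hp
  have hdq : 2 ∣ q - 1 := by
    obtain ⟨m, hm⟩ := hodd
    omega
  have hcard : 2 * Nat.card (chevE7.diagonalSubgroup F) = (q - 1) ^ 7 := by
    have h1 := Cfsg.Agent.S1035.result (F := F) hq (chevE7, Nat.gcd 2 (q - 1)) (by simp)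
    rw [Nat.gcd_eq_left hdq] at h1
    exact h1
  exact hasReal_two hp CoxeterMatrix.E₇.toCoxeterSystem hq H129.TorusChar.invC_E7 hdq (H129.PhiE.isPhi_E7 _)
    (kv := ![0, 1, 0, 0, 1, 0, 1]) (i0 := ⟨6, by decide⟩) rfl (by decide +kernel)
    (Bc := ![![4, 4, 6, 8, 6, 4, 2], ![4, 7, 8, 12, 9, 6, 3], ![6, 8, 12, 16, 12, 8, 4],
      ![8, 12, 16, 24, 18, 12, 6], ![6, 9, 12, 18, 15, 10, 5], ![4, 6, 8, 12, 10, 8, 4],
      ![2, 3, 4, 6, 5, 4, 3]]) (by decide +kernel) hcard hv hr hr2 hrq hrG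

end Cfsg.Agent.H949.PB
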